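import Cfsg.Agent.H477.HC.Adj
import Cfsg.Agent.Characters.Counting
import Cfsg.Agent.Characters.Linear

/-!
# A character of degree prime to `p` from a linear character of a subgroup of index prime to `p` (helper925, S4899)

`exists_pprime` : `f : H →* ℂˣ`, `f ≠ 1`, `f = 1` on the centre, `p ∤ |G : H|` : `G / Z(G)` has an irreducible character
of degree prime to `p`, `≠ 1`, at most `|G : H|`.
-/

set_option autoImplicit false

open scoped ComplexConjugate
open Cfsg

namespace Cfsg.Agent.H925.Eight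

open Cfsg.Agent.Characters Cfsg.Agent.H477.HC

universe u

variable {G : Type u} [Group G] [Finite G]

/-- `∑ χ(1) ⟨χ|_H, λ⟩ = |G : H| λ(1)` -/
theorem sum_one_inner [Fintype (IrrCharacter G)] (H : Subgroup G) [Fintype H] {l : H → ℂ} (hl : ∃ n : ℕ, l 1 = n) :
    ∑ χ : IrrCharacter G, (χ : G → ℂ) 1 * classInner (fun h : H => (χ : G → ℂ) h) l = H.index * l 1 := by
  classical
  have hH : (Nat.card H : ℂ) ≠ 0 := Core.card_ne_zero_complex
  have h1 : ∀ h : H, ∑ χ : IrrCharacter G, (χ : G → ℂ) 1 * (χ : G → ℂ) h = if h = 1 then (Nat.card G : ℂ) else 0 := by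
    intro h
    rw [Counting.sum_irr_one_mul]
    by_cases hh : h = 1
    · subst hh; simp
    · have h' : (h : G) ≠ 1 := fun h' => hh (Subtype.ext h')
      rw [if_neg hh, if_neg h']
  have h2 : ∑ χ : IrrCharacter G, (χ : G → ℂ) 1 * classInner (fun h : H => (χ : G → ℂ) h) l =
      (Nat.card H : ℂ)⁻¹ * ∑ h : H, (∑ χ : IrrCharacter G, (χ : G → ℂ) 1 * (χ : G → ℂ) h) * conj (l h) := by
    simp only [Core.classInner_def, Finset.sum_mul, Finset.mul_sum]
    rw [Finset.sum_comm]
    refine Finset.sum_congr rfl fun h _ => Finset.sum_congr rfl fun χ _ => ?_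
    ring
  rw [h2, Finset.sum_congr rfl fun h _ => by rw [h1 h]]
  simp only [ite_mul, zero_mul, Finset.sum_ite_eq', Finset.mem_univ, if_true]
  obtain ⟨n, hn⟩ := hl
  have h3 : (Nat.card G : ℂ) = Nat.card H * H.index := by
    rw [← Nat.cast_mul, Subgroup.card_mul_index]
  rw [hn, map_natCast, h3]
  field_simp

/-- a linear character as a function -/
noncomputable def lin {H : Type*} [Group H] (f : H →* ℂˣ) : H → ℂ := fun h => (f h : ℂ)

theorem isIrr_lin {H : Type*} [Group H] (f : H →* ℂˣ) : IsIrrCharacter H (lin f) := Linear.isIrrCharacter_hom f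

theorem exists_pprime {H : Subgroup G} (f : H →* ℂˣ) (hf : f ≠ 1) {p : ℕ} (hp : ¬ p ∣ H.index)
    (hZ : ∀ z ∈ Subgroup.center G, ∃ hz : z ∈ H, f ⟨z, hz⟩ = 1)
    (hS : ∀ η : G ⧸ Subgroup.center G → ℂ, IsIrrCharacter _ η → η 1 = 1 → η = 1) :
    ∃ e, Ch (G ⧸ Subgroup.center G) e ∧ 1 < e ∧ ¬ p ∣ e ∧ e ≤ H.index := by
  classical
  have := Core.finite_irr (G := G)
  have := Fintype.ofFinite (IrrCharacter G)
  have := Fintype.ofFinite H
  have := Fintype.ofFinite G
  have hl := isIrr_lin f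
  have hm : ∀ χ : IrrCharacter G, ∃ m : ℕ, classInner (fun h : H => (χ : G → ℂ) h) (lin f) = m := fun χ =>
    Core.classInner_isNat (Core.isCharacter_comp H.subtype (Core.isIrr_isCharacter χ.2)) (Core.isIrr_isCharacter hl)
  choose m hm using hm
  have hd : ∀ χ : IrrCharacter G, ∃ n : ℕ, 0 < n ∧ (χ : G → ℂ) 1 = n := fun χ => Core.isIrr_apply_one χ.2
  choose d hd0 hd using hd
  have hl1 : lin f 1 = 1 := by unfold lin; simp
  have hsum := sum_one_inner H (l := lin f) ⟨1, by rw [hl1]; simp⟩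
  have hsum' : ∑ χ : IrrCharacter G, d χ * m χ = H.index := by
    rw [hl1, mul_one] at hsum
    have : ((∑ χ : IrrCharacter G, d χ * m χ : ℕ) : ℂ) = (H.index : ℂ) := by
      rw [← hsum]
      push_cast
      exact Finset.sum_congr rfl fun χ _ => by rw [hd, hm]
    exact_mod_cast this
  obtain ⟨χ, hχ⟩ : ∃ χ : IrrCharacter G, ¬ p ∣ d χ * m χ := by
    by_contra hcon
    push Not at hcon
    exact hp (hsum' ▸ Finset.dvd_sum fun χ _ => hcon χ)
  have hm0 : m χ ≠ 0 := fun h => hχ (by rw [h, mul_zero]; exact dvd_zero _)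
  have hle : d χ ≤ H.index := by
    rw [← hsum']
    calc d χ ≤ d χ * m χ := Nat.le_mul_of_pos_right _ (Nat.pos_of_ne_zero hm0)
      _ ≤ _ := Finset.single_le_sum (f := fun χ => d χ * m χ) (fun _ _ => Nat.zero_le _) (Finset.mem_univ χ)
  have hin : ∑ h : H, (χ : G → ℂ) h * conj (lin f h) ≠ 0 := by
    intro h
    have h1 := hm χ
    rw [Core.classInner_def] at h1
    change _ * ∑ h : H, (χ : G → ℂ) h * conj (lin f h) = _ at h1
    rw [h, mul_zero] at h1
    exact hm0 (by exact_mod_cast h1.symm)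
  have hker : ∀ z ∈ Subgroup.center G, (χ : G → ℂ) z = (χ : G → ℂ) 1 := by
    intro z hz
    obtain ⟨l, hl'⟩ := central_mul χ.2 hz
    obtain ⟨hzH, hfz⟩ := hZ z hz
    have h1 : ∑ h : H, (χ : G → ℂ) h * conj (lin f h) = l * ∑ h : H, (χ : G → ℂ) h * conj (lin f h) := by
      rw [Finset.mul_sum]
      rw [← Equiv.sum_comp (Equiv.mulRight (⟨z, hzH⟩ : H))]
      refine Finset.sum_congr rfl fun h _ => ?_
      have h2 : lin f (h * ⟨z, hzH⟩) = lin f h := by unfold lin; rw [map_mul, hfz, mul_one]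
      rw [Equiv.coe_mulRight, h2, Subgroup.coe_mul, hl' h]
      ring
    have h3 : l = 1 := by
      by_contra hne
      have h4 : (1 - l) * ∑ h : H, (χ : G → ℂ) h * conj (lin f h) = 0 := by
        rw [sub_mul, one_mul, ← h1, sub_self]
      rcases mul_eq_zero.1 h4 with h5 | h5
      · exact hne (sub_eq_zero.1 h5).symm
      · exact hin h5
    have h6 := hl' 1
    rwa [one_mul, h3, one_mul] at h6
  obtain ⟨η, hη, hη'⟩ := exists_quot (Subgroup.center G) χ.2 hker
  refine ⟨d χ, ⟨η, hη, by rw [← hd, ← hη' 1]; rfl⟩, ?_, fun h => hχ (h.mul_right _), hle⟩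
  rcases Nat.eq_or_lt_of_le (Nat.succ_le_iff.2 (hd0 χ)) with h | h
  · exfalso
    have h1 : η 1 = 1 := by
      have h2 := hη' 1
      rw [hd, ← h] at h2
      exact h2.trans (by simp)
    have h3 := hS η hη h1
    have h4 : ∀ g : G, (χ : G → ℂ) g = 1 := fun g => by rw [← hη' g, h3]; rfl
    have h5 : classInner (fun h : H => (χ : G → ℂ) h) (lin f) = classInner (1 : H → ℂ) (lin f) := by
      congr 1
      funext h
      rw [h4]; rfl
    have h6 : (1 : H → ℂ) ≠ lin f := by
      intro h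
      apply hf
      ext x
      have h7 := congrFun h x
      exact h7.symm
    rw [hm, Core.classInner_irr_ne Core.isIrr_one hl h6] at h5
    exact hm0 (by exact_mod_cast h5)
  · exact h

end Cfsg.Agent.H925.Eight
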