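import Cfsg.Agent.H674.Dl.OrthCh
import Cfsg.Agent.H539.Eight.Cnt

/-!
# The sizes of the degrees `dg (plusF K m) k` (helper925, S4899)
-/

set_option autoImplicit false

open Cfsg

namespace Cfsg.Agent.H925.Eight

open Cfsg.Agent.H477.HC Cfsg.Agent.H674.Dl Module

universe u

/-- the factor -/
def rf (q i : ℕ) : ℕ := (q ^ (i + 1) - 1) * (q ^ i + 1)

def RR (q j m : ℕ) : ℕ := ∏ i ∈ Finset.Ico j m, rf q i

theorem rf_pos {q i : ℕ} (hq : 2 ≤ q) : 0 < rf q i := by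
  have h1 : 1 < q ^ (i + 1) := Nat.one_lt_pow (by omega) hq
  exact Nat.mul_pos (by omega) (by omega)

theorem RR_pos {q : ℕ} (hq : 2 ≤ q) (j m : ℕ) : 0 < RR q j m := Finset.prod_pos fun _ _ => rf_pos hq

theorem RR_split {q j l m : ℕ} (h1 : j ≤ l) (h2 : l ≤ m) : RR q j m = RR q j l * RR q l m :=
  (Finset.prod_Ico_consecutive _ h1 h2).symm

theorem RR_succ {q j m : ℕ} (h : j < m) : RR q j m = rf q j * RR q (j + 1) m := Finset.prod_eq_prod_Ico_succ_bot h _

theorem RR_self (q m : ℕ) : RR q m m = 1 := by unfold RR; rw [Finset.Ico_self, Finset.prod_empty]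

section

variable (K : Type u) [Field K] [Finite K]

theorem dg_eq {k m : ℕ} (hk : 1 ≤ k) (hkm : k ≤ m) :
    dg (CForm.plusF K m) k * (Nat.card K ^ k - 1) = RR (Nat.card K) (m - k) m := by
  obtain ⟨n, rfl⟩ : ∃ n, m = k + n := ⟨m - k, by omega⟩
  rw [Nat.add_sub_cancel_left]
  exact H539.Eight.dg_plus K hk n

variable (p : ℕ) [Fact p.Prime] [CharP K p]

theorem pp_rf {i : ℕ} (hi : 0 < i) : pp p (rf (Nat.card K) i) = rf (Nat.card K) i := by
  unfold rf
  rw [pp_mul, pp_sub K p (by omega), pp_add K p hi]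

theorem not_dvd_rf {i : ℕ} (hi : 0 < i) : ¬ p ∣ rf (Nat.card K) i := by
  obtain ⟨s, hs, hs0⟩ := card_pow' K p
  unfold rf
  rw [(Fact.out : p.Prime).dvd_mul, not_or]
  exact ⟨not_dvd_pow_sub Fact.out hs hs0 (by omega), not_dvd_pow_add Fact.out hs hs0 hi⟩

theorem pp_RR {j m : ℕ} (hj : 0 < j) : pp p (RR (Nat.card K) j m) = RR (Nat.card K) j m := by
  unfold RR
  rw [pp_prod Fact.out]
  exact Finset.prod_congr rfl fun i hi => pp_rf K p (by rw [Finset.mem_Ico] at hi; omega)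

theorem not_dvd_RR {j m : ℕ} (hj : 0 < j) : ¬ p ∣ RR (Nat.card K) j m := by
  unfold RR
  rw [(Fact.out : p.Prime).prime.dvd_finsetProd_iff]
  rintro ⟨i, hi, h⟩
  exact not_dvd_rf K p (by rw [Finset.mem_Ico] at hi; omega) h

theorem not_dvd_dg {k m : ℕ} (hk : 1 ≤ k) (hkm : k < m) : ¬ p ∣ dg (CForm.plusF K m) k := fun h =>
  not_dvd_RR K p (show 0 < m - k by omega) (dg_eq K hk hkm.le ▸ h.mul_right _)

theorem pp_dg_eq {k m : ℕ} (hk : 1 ≤ k) (hkm : k ≤ m) :
    pp p (dg (CForm.plusF K m) k) * (Nat.card K ^ k - 1) = pp p (RR (Nat.card K) (m - k) m) := by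
  rw [← dg_eq K hk hkm, pp_mul, pp_sub K p hk]

theorem ineq_top {q m : ℕ} (hq : 2 ≤ q) (hm : 4 ≤ m) : q ^ m - 1 < rf q (m - 3) * (q ^ 2 - 1) := by
  have h1 : q ≤ q ^ (m - 3) := by
    calc q = q ^ 1 := (pow_one q).symm
      _ ≤ _ := Nat.pow_le_pow_right (by omega) (by omega)
  have h2 : q ^ (m - 3 + 1) = q * q ^ (m - 3) := pow_succ' _ _
  have h3 : q ^ m = q ^ 3 * q ^ (m - 3) := by rw [← pow_add]; congr 1; omega
  unfold rf
  rw [h2, h3]
  obtain ⟨x, hx⟩ : ∃ x, q ^ (m - 3) = q + x := ⟨q ^ (m - 3) - q, by omega⟩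
  obtain ⟨y, rfl⟩ : ∃ y, q = y + 2 := ⟨q - 2, by omega⟩
  rw [hx]
  have e1 : (y + 2) ^ 2 - 1 = y * y + 4 * y + 3 := by
    have : (y + 2) ^ 2 = y * y + 4 * y + 4 := by ring
    omega
  have e2 : (y + 2) * (y + 2 + x) - 1 = y * y + 4 * y + 3 + (y + 2) * x := by
    have : (y + 2) * (y + 2 + x) = y * y + 4 * y + 4 + (y + 2) * x := by ring
    omega
  rw [e1, e2]
  refine lt_of_le_of_lt (Nat.sub_le _ _) ?_
  nlinarith [Nat.zero_le (x * y), Nat.zero_le (x * x), Nat.zero_le (x * x * y), Nat.zero_le (x * y * y),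
    Nat.zero_le (x * x * y * y), Nat.zero_le (x * y * y * y), Nat.zero_le (y * y * y * y), Nat.zero_le (y * y * y),
    Nat.zero_le (x * x * y * y * y), Nat.zero_le (x * y * y * y * y), Nat.zero_le (y * y * y * y * y), Nat.zero_le (y * y)]

/-- **`dg 2` is the smallest** -/
theorem dg_two_lt {m k : ℕ} (hm : 4 ≤ m) (hk : 3 ≤ k) (hkm : k ≤ m) :
    pp p (dg (CForm.plusF K m) 2) < pp p (dg (CForm.plusF K m) k) := by
  have hq : 2 ≤ Nat.card K := Finite.one_lt_card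
  have h1 := pp_dg_eq K p (show 1 ≤ k by omega) hkm
  have h2 := pp_dg_eq K p (show 1 ≤ 2 by omega) (show 2 ≤ m by omega)
  rw [pp_RR K p (by omega)] at h2
  have h3 : pp p (RR (Nat.card K) (m - k) m) = pp p (RR (Nat.card K) (m - k) (m - 3)) *
      (rf (Nat.card K) (m - 3) * RR (Nat.card K) (m - 2) m) := by
    rw [RR_split (show m - k ≤ m - 3 by omega) (show m - 3 ≤ m by omega), pp_mul,
      RR_succ (show m - 3 < m by omega), pp_mul, pp_rf K p (by omega), show m - 3 + 1 = m - 2 by omega,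
      pp_RR K p (j := m - 2) (m := m) (by omega)]
  have h4 : 0 < pp p (RR (Nat.card K) (m - k) (m - 3)) := pp_pos (RR_pos hq _ _).ne'
  have h5 := ineq_top hq hm
  have h6 : 0 < pp p (dg (CForm.plusF K m) 2) := by
    apply Nat.pos_of_ne_zero
    intro h
    rw [h, zero_mul] at h2
    exact (RR_pos hq _ _).ne h2
  have h7 : Nat.card K ^ k - 1 ≤ Nat.card K ^ m - 1 := by
    have := Nat.pow_le_pow_right (show 0 < Nat.card K by omega) hkm
    omega
  have h8 : pp p (dg (CForm.plusF K m) 2) * (Nat.card K ^ k - 1) < pp p (dg (CForm.plusF K m) k) * (Nat.card K ^ k - 1) := by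
    calc pp p (dg (CForm.plusF K m) 2) * (Nat.card K ^ k - 1)
        ≤ pp p (dg (CForm.plusF K m) 2) * (Nat.card K ^ m - 1) := Nat.mul_le_mul_left _ h7
      _ < pp p (dg (CForm.plusF K m) 2) * (rf (Nat.card K) (m - 3) * (Nat.card K ^ 2 - 1)) :=
          Nat.mul_lt_mul_of_pos_left h5 h6
      _ = 1 * (rf (Nat.card K) (m - 3) * RR (Nat.card K) (m - 2) m) := by rw [← h2]; ring
      _ ≤ pp p (RR (Nat.card K) (m - k) (m - 3)) * (rf (Nat.card K) (m - 3) * RR (Nat.card K) (m - 2) m) :=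
          Nat.mul_le_mul_right _ h4
      _ = _ := by rw [h1, h3]
  exact lt_of_mul_lt_mul_right h8 (Nat.zero_le _)

theorem RR_two (q m : ℕ) (hm : 2 ≤ m) : RR q (m - 2) m = rf q (m - 2) * rf q (m - 1) := by
  rw [RR_succ (show m - 2 < m by omega), show m - 2 + 1 = m - 1 by omega, RR_succ (show m - 1 < m by omega),
    show m - 1 + 1 = m by omega, RR_self, mul_one]

theorem dg_two_eq {m : ℕ} (hm : 3 ≤ m) : pp p (dg (CForm.plusF K m) 2) * (Nat.card K ^ 2 - 1) =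
    rf (Nat.card K) (m - 2) * rf (Nat.card K) (m - 1) := by
  rw [pp_dg_eq K p (by omega) (by omega), pp_RR K p (by omega), RR_two _ _ (by omega)]

omit [Fact p.Prime] [CharP K p] in
theorem dg_one_eq {m : ℕ} (hm : 1 ≤ m) : dg (CForm.plusF K m) 1 * (Nat.card K - 1) = rf (Nat.card K) (m - 1) := by
  have := dg_eq K (k := 1) (m := m) le_rfl hm
  rw [pow_one, RR_succ (show m - 1 < m by omega), show m - 1 + 1 = m by omega, RR_self, mul_one] at this
  exact this

/-- the number of singular points is small -/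
theorem dg_one_lt {m : ℕ} (hm : 4 ≤ m) : 4 * dg (CForm.plusF K m) 1 < pp p (dg (CForm.plusF K m) 2) := by
  have hq : 2 ≤ Nat.card K := Finite.one_lt_card
  have h1 := dg_one_eq K (m := m) (by omega)
  have h2 := dg_two_eq K p (m := m) (by omega)
  set d := dg (CForm.plusF K m) 1
  set D := pp p (dg (CForm.plusF K m) 2)
  set q := Nat.card K
  obtain ⟨y, hy⟩ : ∃ y, q = y + 2 := ⟨q - 2, by omega⟩
  have hd : 0 < d := by
    apply Nat.pos_of_ne_zero
    intro h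
    rw [h, zero_mul] at h1
    exact (rf_pos hq).ne h1
  have e1 : q ^ 2 - 1 = (q - 1) * (q + 1) := by
    rw [hy]
    have : (y + 2) ^ 2 = (y + 1) * (y + 3) + 1 := by ring
    rw [this, Nat.add_sub_cancel]
    rfl
  have h3 : D * (q + 1) = rf q (m - 2) * d := by
    have h4 : (D * (q + 1)) * (q - 1) = (rf q (m - 2) * d) * (q - 1) := by
      calc (D * (q + 1)) * (q - 1) = D * (q ^ 2 - 1) := by rw [e1]; ring
        _ = rf q (m - 2) * rf q (m - 1) := h2
        _ = _ := by rw [← h1]; ring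
    exact Nat.eq_of_mul_eq_mul_right (by omega) h4
  have h5 : 4 * (q + 1) < rf q (m - 2) := by
    have h6 : q ^ 3 ≤ q ^ (m - 2 + 1) := Nat.pow_le_pow_right (by omega) (by omega)
    have h7 : q ^ 2 ≤ q ^ (m - 2) := Nat.pow_le_pow_right (by omega) (by omega)
    have h8 : (q ^ 3 - 1) * (q ^ 2 + 1) ≤ rf q (m - 2) := Nat.mul_le_mul (by omega) (by omega)
    refine lt_of_lt_of_le ?_ h8
    have h9 : 7 ≤ q ^ 3 - 1 := by
      have : 2 ^ 3 ≤ q ^ 3 := Nat.pow_le_pow_left hq 3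
      omega
    refine lt_of_lt_of_le ?_ (Nat.mul_le_mul_right _ h9)
    rw [hy]
    nlinarith
  have h6 : (4 * d) * (q + 1) < D * (q + 1) := by
    rw [h3]
    calc (4 * d) * (q + 1) = (4 * (q + 1)) * d := by ring
      _ < _ := Nat.mul_lt_mul_of_pos_right h5 hd
  exact lt_of_mul_lt_mul_right h6 (Nat.zero_le _)

/-- the two characters of the rank 3 action -/
theorem rk3_small {m : ℕ} (hm : 4 ≤ m) {a b : ℕ}
    (ha : ((Nat.card K : ℤ) ^ 2 - 1) * a = Nat.card K * (Nat.card K ^ (m - 2) + 1) * ((Nat.card K : ℤ) ^ m - 1))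
    (hb : ((Nat.card K : ℤ) ^ 2 - 1) * b = Nat.card K ^ 2 * ((Nat.card K : ℤ) ^ (2 * m - 2) - 1)) :
    p ∣ a ∧ p ∣ b ∧ a ≠ b ∧ 1 < pp p a ∧ 1 < pp p b ∧ 4 * pp p a < pp p (dg (CForm.plusF K m) 2) ∧
      4 * pp p b < pp p (dg (CForm.plusF K m) 2) := by
  have hq : 2 ≤ Nat.card K := Finite.one_lt_card
  obtain ⟨s, hs, hs0⟩ := card_pow' K p
  have hpq : p ∣ Nat.card K := by rw [hs]; exact dvd_pow_self p hs0
  have h1 : 1 ≤ Nat.card K ^ m := Nat.one_le_pow _ _ (by omega)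
  have h2 : 1 ≤ Nat.card K ^ 2 := Nat.one_le_pow _ _ (by omega)
  have h3 : 1 ≤ Nat.card K ^ (2 * m - 2) := Nat.one_le_pow _ _ (by omega)
  have ha' : (Nat.card K ^ 2 - 1) * a = Nat.card K ^ 1 * ((Nat.card K ^ (m - 2) + 1) * (Nat.card K ^ m - 1)) := by
    zify [h1, h2]
    rw [ha]
    ring
  have hb' : (Nat.card K ^ 2 - 1) * b = Nat.card K ^ 2 * (Nat.card K ^ (2 * m - 2) - 1) := by
    zify [h2, h3]
    rw [hb]
  have hpa := congrArg (pp p) ha'
  have hpb := congrArg (pp p) hb'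
  rw [pp_mul, pp_sub K p (by norm_num), pp_q K p, pp_mul, pp_add K p (by omega), pp_sub K p (by omega)] at hpa
  rw [pp_mul, pp_sub K p (by norm_num), pp_q K p, pp_sub K p (by omega)] at hpb
  have hcop : ¬ p ∣ Nat.card K ^ 2 - 1 := not_dvd_pow_sub Fact.out hs hs0 (by norm_num)
  have hp : p.Prime := Fact.out
  have hda : p ∣ a := by
    have h4 : p ∣ (Nat.card K ^ 2 - 1) * a := by
      rw [ha', pow_one]
      exact hpq.mul_right _
    exact (hp.dvd_mul.1 h4).resolve_left hcop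
  have hdb : p ∣ b := by
    have h4 : p ∣ (Nat.card K ^ 2 - 1) * b := by
      rw [hb']
      exact (hpq.trans (dvd_pow_self _ (by norm_num))).mul_right _
    exact (hp.dvd_mul.1 h4).resolve_left hcop
  have hD := dg_two_eq K p (m := m) (by omega)
  set D := pp p (dg (CForm.plusF K m) 2)
  set q := Nat.card K
  set A := pp p a
  set B := pp p b
  -- the powers
  obtain ⟨x, hx⟩ : ∃ x, q ^ (m - 2) = q * q + x := ⟨q ^ (m - 2) - q * q, by
    have : q ^ 2 ≤ q ^ (m - 2) := Nat.pow_le_pow_right (by omega) (by omega)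
    rw [sq] at this
    omega⟩
  have e1 : q ^ m = q * q * (q * q + x) := by
    rw [← hx, ← sq, ← pow_add]; congr 1; omega
  have e2 : q ^ (2 * m - 2) = q ^ 2 * ((q * q + x) * (q * q + x)) := by
    rw [← hx, ← pow_add, ← pow_add]; congr 1; omega
  have e3 : rf q (m - 2) * rf q (m - 1) = (q ^ (2 * m - 2) - 1) * ((q ^ (m - 2) + 1) * (q ^ m - 1)) := by
    unfold rf
    rw [show m - 2 + 1 = m - 1 by omega, show m - 1 + 1 = m by omega]
    have e4 : q ^ (2 * m - 2) - 1 = (q ^ (m - 1) - 1) * (q ^ (m - 1) + 1) := by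
      obtain ⟨w, hw⟩ : ∃ w, q ^ (m - 1) = w + 1 := ⟨q ^ (m - 1) - 1, by
        have := Nat.one_le_pow (m - 1) q (by omega); omega⟩
      rw [show 2 * m - 2 = (m - 1) + (m - 1) by omega, pow_add, hw, Nat.add_sub_cancel,
        show (w + 1) * (w + 1) = w * (w + 1 + 1) + 1 by ring, Nat.add_sub_cancel]
    rw [e4]
    ring
  rw [e3] at hD
  have hq2 : 3 ≤ q ^ 2 - 1 := by
    have : 2 ^ 2 ≤ q ^ 2 := Nat.pow_le_pow_left hq 2
    omega
  have hq2' : q ^ 2 - 1 + 1 = q ^ 2 := by omega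
  have hqq : q * q = q ^ 2 := (sq q).symm
  have hA : D = A * (q ^ (2 * m - 2) - 1) := by
    have h4 : D * (q ^ 2 - 1) = (A * (q ^ (2 * m - 2) - 1)) * (q ^ 2 - 1) := by
      rw [hD, ← hpa]; ring
    exact Nat.eq_of_mul_eq_mul_right (by omega) h4
  have hB : D = B * ((q ^ (m - 2) + 1) * (q ^ m - 1)) := by
    have h4 : D * (q ^ 2 - 1) = (B * ((q ^ (m - 2) + 1) * (q ^ m - 1))) * (q ^ 2 - 1) := by
      rw [hD, ← hpb]; ring
    exact Nat.eq_of_mul_eq_mul_right (by omega) h4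
  have hq4 : 16 ≤ q ^ m := by
    calc 16 = 2 ^ 4 := by norm_num
      _ ≤ q ^ 4 := Nat.pow_le_pow_left hq 4
      _ ≤ _ := Nat.pow_le_pow_right (by omega) hm
  have hq6 : 64 ≤ q ^ (2 * m - 2) := by
    calc 64 = 2 ^ 6 := by norm_num
      _ ≤ q ^ 6 := Nat.pow_le_pow_left hq 6
      _ ≤ _ := Nat.pow_le_pow_right (by omega) (by omega)
  have hA1 : 1 < A := by
    by_contra h
    have h4 : A ≤ 1 := not_lt.1 h
    have h5 : (q ^ (m - 2) + 1) * (q ^ m - 1) ≤ q ^ 2 - 1 := by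
      rw [← hpa]
      calc (q ^ 2 - 1) * A ≤ (q ^ 2 - 1) * 1 := Nat.mul_le_mul_left _ h4
        _ = _ := mul_one _
    have h6 : q ^ 2 < q ^ (m - 2) + 1 := by rw [hx, ← hqq]; omega
    have h7 : q ^ (m - 2) + 1 ≤ (q ^ (m - 2) + 1) * (q ^ m - 1) := Nat.le_mul_of_pos_right _ (by omega)
    omega
  have hB1 : 1 < B := by
    by_contra h
    have h4 : B ≤ 1 := not_lt.1 h
    have h5 : q ^ (2 * m - 2) - 1 ≤ q ^ 2 - 1 := by
      rw [← hpb]
      calc (q ^ 2 - 1) * B ≤ (q ^ 2 - 1) * 1 := Nat.mul_le_mul_left _ h4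
        _ = _ := mul_one _
    have h6 : q ^ 2 < q ^ (2 * m - 2) := Nat.pow_lt_pow_right hq (by omega)
    omega
  refine ⟨hda, hdb, fun hab => ?_, hA1, hB1, ?_, ?_⟩
  · -- equal prime-to-p parts
    have h4 : A = B := congrArg (pp p) hab
    have h5 : (q ^ (m - 2) + 1) * (q ^ m - 1) = q ^ (2 * m - 2) - 1 := by rw [← hpa, ← hpb, h4]
    rw [hx, e1, e2] at h5
    have h6 : q * q * (q * q + x) - 1 + 1 = q * q * (q * q + x) := Nat.sub_add_cancel (by rw [← e1]; omega)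
    have h7 : q ^ 2 * ((q * q + x) * (q * q + x)) - 1 + 1 = q ^ 2 * ((q * q + x) * (q * q + x)) :=
      Nat.sub_add_cancel (by rw [← e2]; omega)
    set u := q * q * (q * q + x) - 1
    have h8 : (q * q + x + 1) * u + 1 = q ^ 2 * ((q * q + x) * (q * q + x)) := by rw [h5, h7]
    have h9 : (q * q + x + 1) * (u + 1) = q ^ 2 * ((q * q + x) * (q * q + x)) + (q * q + x) := by
      rw [← h8]; ring
    rw [h6] at h9
    have h10 : (q * q + x + 1) * (q * q * (q * q + x)) = q ^ 2 * ((q * q + x) * (q * q + x)) + q ^ 2 * (q * q + x) := by ring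
    rw [h10] at h9
    have h11 : q ^ 2 * (q * q + x) = q * q + x := Nat.add_left_cancel h9
    have h12 : 0 < q * q + x := by rw [← hx]; exact Nat.pow_pos (by omega)
    have h13 : 4 * (q * q + x) ≤ q ^ 2 * (q * q + x) := Nat.mul_le_mul_right _ (by omega)
    omega
  · rw [hA, mul_comm 4 A]
    exact Nat.mul_lt_mul_of_pos_left (by omega) (by omega)
  · rw [hB, mul_comm 4 B]
    refine Nat.mul_lt_mul_of_pos_left ?_ (by omega)
    have h7 : q ^ m - 1 ≤ (q ^ (m - 2) + 1) * (q ^ m - 1) := Nat.le_mul_of_pos_left _ (by omega)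
    omega

end

end Cfsg.Agent.H925.Eight
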