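import Cfsg.Agent.H925.Eight.Ind
import Cfsg.Agent.H674.Dl.OrthCh

/-!
# The linear character of the stabiliser of a totally singular subspace (helper925, S4899)

`exists_deg` : `f₀ : GL(W₀) →* ℂˣ`, nontrivial on some commutator which leaves `W₀` invariant, trivial on the centre,
`p ∤ |Om k|` : `PΩ` has a degree `e`, `1 < e ≤ |Om k|`, `p ∤ e`.
-/

set_option autoImplicit false

open scoped ComplexConjugate
open Cfsg

namespace Cfsg.Agent.H925.Eight

open Cfsg.Agent.Characters Cfsg.Agent.H477.HC Cfsg.Agent.H53.HC Module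

universe u

theorem card_mul_relIndex {A : Type*} [Group A] {H L : Subgroup A} (h : H ≤ L) :
    Nat.card H * H.relIndex L = Nat.card L := by
  have := Subgroup.relIndex_mul_relIndex ⊥ H L bot_le h
  rwa [Subgroup.relIndex_bot_left, Subgroup.relIndex_bot_left] at this

/-- for a normal subgroup `N`, `|N : P ∩ N|` divides `|A : P|` -/
theorem relIndex_dvd_index {A : Type*} [Group A] [Finite A] (P N : Subgroup A) [N.Normal] : P.relIndex N ∣ P.index := by
  have h1 : P.relIndex (P ⊔ N) * (P ⊔ N).index = P.index := Subgroup.relIndex_mul_index le_sup_left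
  have h2 : N.relIndex (P ⊔ N) = N.relIndex P := by
    rw [sup_comm]; exact Subgroup.relIndex_sup_left P N
  have h3 : Nat.card N * N.relIndex (P ⊔ N) = Nat.card ↥(P ⊔ N) := by
    exact card_mul_relIndex le_sup_right
  have h4 : Nat.card P * P.relIndex (P ⊔ N) = Nat.card ↥(P ⊔ N) := by
    exact card_mul_relIndex le_sup_left
  have h5 : Nat.card ↥(P ⊓ N) * N.relIndex P = Nat.card P := by
    rw [← Subgroup.inf_relIndex_right, inf_comm N P]
    exact card_mul_relIndex inf_le_left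
  have h6 : Nat.card ↥(P ⊓ N) * P.relIndex N = Nat.card N := by
    rw [← Subgroup.inf_relIndex_right]
    exact card_mul_relIndex inf_le_right
  have h7 : 0 < Nat.card ↥(P ⊓ N) := Nat.card_pos
  have h9 : 0 < N.relIndex P := by
    apply Nat.pos_of_ne_zero
    intro h
    rw [h, mul_zero] at h5
    exact (Nat.card_pos (α := P)).ne h5
  have h8 : P.relIndex (P ⊔ N) = P.relIndex N := by
    rw [h2] at h3
    rw [← h3, ← h5, ← h6] at h4
    have h10 : (Nat.card ↥(P ⊓ N) * N.relIndex P) * P.relIndex (P ⊔ N) =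
        (Nat.card ↥(P ⊓ N) * N.relIndex P) * P.relIndex N := by rw [h4]; ring
    exact Nat.eq_of_mul_eq_mul_left (Nat.mul_pos h7 h9) h10
  rw [← h1, h8]
  exact Dvd.intro _ rfl

section

variable {ι : Type} [Fintype ι] [DecidableEq ι] {K : Type u} [Field K] [Finite K] (F : CForm K (ι → K))
  (hB : ∀ u v, F.B u v = F.Q (u + v) - F.Q u - F.Q v)

/-- `Ω` in the isometry group -/
noncomputable def toIso : Omega K F.Q →* F.iso := (isoQuad F hB).toMonoidHom.comp (Omega K F.Q).subtype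

omit [Finite K] in
theorem toIso_apply (g : Omega K F.Q) (v : ι → K) : (toIso F hB g : (ι → K) ≃ₗ[K] (ι → K)) v = (omMat g).mulVec v := rfl

omit [Finite K] in
theorem range_toIso : (toIso F hB).range = commutator F.iso := by
  unfold toIso
  rw [MonoidHom.range_comp, Subgroup.range_subtype]
  unfold Omega
  have h1 : (isoQuad F hB).toMonoidHom.range = ⊤ := MonoidHom.range_eq_top.2 (isoQuad F hB).surjective
  rw [commutator_def, commutator_def, Subgroup.map_commutator, ← MonoidHom.range_eq_map, h1]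

include hB in
theorem exists_deg {p k : ℕ} {W₀ : Submodule K (ι → K)} (hW₀ : W₀ ∈ F.Om k) (f₀ : (W₀ ≃ₗ[K] W₀) →* ℂˣ)
    (x y : F.iso) (z : W₀ ≃ₗ[K] W₀)
    (hz : ∀ w : W₀, ((x * y * x⁻¹ * y⁻¹ : F.iso) : (ι → K) ≃ₗ[K] (ι → K)) (w : ι → K) = (z w : ι → K)) (hfz : f₀ z ≠ 1)
    (hcen : ∀ z : Omega K F.Q, z ∈ Subgroup.center (Omega K F.Q) → ∃ a : Kˣ, (∀ v, (omMat z).mulVec v = (a : K) • v) ∧
      ∀ u : W₀ ≃ₗ[K] W₀, (∀ w, u w = (a : K) • w) → f₀ u = 1)
    (hp : ¬ p ∣ Nat.card (F.Om k))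
    (hS : ∀ η : POmega K F.Q → ℂ, IsIrrCharacter _ η → η 1 = 1 → η = 1) :
    ∃ e, Ch (POmega K F.Q) e ∧ 1 < e ∧ ¬ p ∣ e ∧ e ≤ Nat.card (F.Om k) := by
  classical
  have := finite_Om F k
  have := finite_iso F
  have : Finite (isometryGroup K F.Q) := Finite.of_equiv _ (isoQuad F hB).toEquiv.symm
  let ρ : Omega K F.Q →* ((ι → K) ≃ₗ[K] (ι → K)) := F.iso.subtype.comp (toIso F hB)
  have hidx : (stabW ρ W₀).index ∣ Nat.card (F.Om k) := by
    have h1 : stabW ρ W₀ = (stabW F.iso.subtype W₀).comap (toIso F hB) := rfl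
    have h2 : (stabW F.iso.subtype W₀).index = Nat.card (F.Om k) := by
      have h3 := F.card_iso_eq hW₀
      rw [← Subgroup.index_mul_card (stabW F.iso.subtype W₀)] at h3
      exact Nat.eq_of_mul_eq_mul_right Nat.card_pos h3
    rw [h1, Subgroup.index_comap, ← h2, range_toIso]
    exact relIndex_dvd_index _ _
  have hpos : 0 < Nat.card (F.Om k) := Nat.pos_of_ne_zero fun h => hp (h ▸ dvd_zero _)
  obtain ⟨e, h1, h2, h3, h4⟩ := exists_pprime (p := p) (f₀.comp (resHom ρ W₀)) (by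
    intro hf
    have hg : (x * y * x⁻¹ * y⁻¹ : F.iso) ∈ (toIso F hB).range := by
      rw [range_toIso]
      exact Subgroup.commutator_mem_commutator (Subgroup.mem_top x) (Subgroup.mem_top y)
    obtain ⟨g, hg⟩ := hg
    have hst : g ∈ stabW ρ W₀ := by
      refine map_eq_of_le ρ fun w hw => ?_
      change ((toIso F hB g : F.iso) : (ι → K) ≃ₗ[K] (ι → K)) w ∈ W₀
      rw [hg, hz ⟨w, hw⟩]
      exact (z ⟨w, hw⟩).2
    have h5 : resHom ρ W₀ ⟨g, hst⟩ = z := by
      refine LinearEquiv.ext fun w => Subtype.ext ?_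
      rw [coe_resHom]
      change ((toIso F hB g : F.iso) : (ι → K) ≃ₗ[K] (ι → K)) w = _
      rw [hg, hz w]
    have h6 := DFunLike.congr_fun hf ⟨g, hst⟩
    rw [MonoidHom.comp_apply, h5] at h6
    exact hfz h6) (fun h => hp (h.trans hidx)) (fun z hz => by
    obtain ⟨a, ha, ha'⟩ := hcen z hz
    have hst : z ∈ stabW ρ W₀ := by
      refine map_eq_of_le ρ fun w hw => ?_
      change ((toIso F hB z : F.iso) : (ι → K) ≃ₗ[K] (ι → K)) w ∈ W₀
      rw [toIso_apply, ha]
      exact W₀.smul_mem _ hw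
    refine ⟨hst, ?_⟩
    rw [MonoidHom.comp_apply]
    apply ha'
    intro w
    apply Subtype.ext
    rw [coe_resHom]
    change ((toIso F hB z : F.iso) : (ι → K) ≃ₗ[K] (ι → K)) w = _
    rw [toIso_apply, ha]
    rfl) hS
  exact ⟨e, h1, h2, h3, h4.trans (Nat.le_of_dvd hpos hidx)⟩

end

end Cfsg.Agent.H925.Eight
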