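import Cfsg.Agent.H925.Eight.PtLn
import Cfsg.Agent.H925.Eight.Num
import Cfsg.Agent.H664.Eight.Base
import Cfsg.Agent.H167.HasSt
import Cfsg.Agent.Nodes.WittInst
import Cfsg.Agent.Characters.Ito
import Cfsg.Agent.S0296

/-!
# `PΩ⁺` has at least eight character degrees (helper925, S4899)
-/

set_option autoImplicit false

open Cfsg

namespace Cfsg.Agent.H925.Eight

open Cfsg.Agent.Characters Cfsg.Agent.H477.HC Cfsg.Agent.H674.Dl Cfsg.Agent.H664.Eight Module

universe u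

theorem mem_of_ch {S : Type u} [Group S] {d : ℕ} (h : Ch S d) : d ∈ charDegrees S := by
  obtain ⟨χ, hχ, hd⟩ := h
  refine ⟨⟨χ, hχ⟩, ?_⟩
  show charDegree χ = d
  unfold charDegree
  rw [hd]
  simp

theorem ch_pos {S : Type u} [Group S] {d : ℕ} (h : Ch S d) : 0 < d := by
  obtain ⟨χ, hχ, hd⟩ := h
  obtain ⟨n, hn, hn'⟩ := Core.isIrr_apply_one hχ
  have : (d : ℂ) = n := hd.symm.trans hn'
  have h1 : d = n := by exact_mod_cast this
  omega

/-- the linear characters of a simple group with a degree `> 1` are trivial -/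
theorem lin_trivial {S : Type u} [Group S] [Finite S] [IsSimpleGroup S] {a : ℕ} (ha : Ch S a) (h1 : 1 < a)
    (η : S → ℂ) (hη : IsIrrCharacter S η) (hη1 : η 1 = 1) : η = 1 := by
  obtain ⟨f, rfl⟩ := Linear.exists_hom_of_isIrrCharacter hη hη1
  rcases f.normal_ker.eq_bot_or_eq_top with h | h
  · exfalso
    have hinj : Function.Injective f := (MonoidHom.ker_eq_bot_iff f).1 h
    have hcomm : ∀ x y : S, x * y = y * x := fun x y => hinj (by rw [map_mul, map_mul, mul_comm])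
    obtain ⟨χ, ⟨n, ρ, hρ, rfl⟩, hχ1⟩ := ha
    have h2 := Ito.finrank_dvd_index ρ ⊤ fun x _ y _ => hcomm x y
    rw [Subgroup.index_top, Nat.dvd_one, Module.finrank_fin_fun] at h2
    have h3 : ρ.character 1 = (n : ℂ) := by rw [Representation.char_one]; simp
    have h4 : (a : ℂ) = n := hχ1.symm.trans h3
    have h5 : a = n := by exact_mod_cast h4
    omega
  · funext g
    have : g ∈ f.ker := by rw [h]; exact Subgroup.mem_top g
    rw [MonoidHom.mem_ker] at this
    simp [this]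

/-- the characters `Dn` and some others -/
theorem eight_of_dn {S : Type u} [Group S] [Finite S] {p q : ℕ} {d : ℕ → ℕ} (T X : Finset ℕ)
    (hT : ∀ k ∈ T, ∃ e, Dn S p q (d k) e)
    (hsep : ∀ j ∈ T, ∀ k ∈ T, j ≠ k → ∀ e e', Dn S p q (d j) e → Dn S p q (d k) e' → e ≠ e')
    (hX : ∀ x ∈ X, Ch S x) (hXT : ∀ x ∈ X, ∀ k ∈ T, ∀ e, Dn S p q (d k) e → x ≠ e) (h8 : 8 ≤ T.card + X.card) :
    Eight S := by
  classical
  choose! e he using hT
  have hinj : Set.InjOn e T := by
    intro j hj k hk h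
    by_contra hne
    exact hsep j hj k hk hne _ _ (he j hj) (he k hk) h
  have hdisj : Disjoint (T.image e) X := by
    rw [Finset.disjoint_left]
    intro x hx hx'
    obtain ⟨k, hk, rfl⟩ := Finset.mem_image.1 hx
    exact hXT _ hx' k hk _ (he k hk) rfl
  have h1 : (T.image e ∪ X).card = T.card + X.card := by
    rw [Finset.card_union_of_disjoint hdisj, Finset.card_image_of_injOn hinj]
  refine eight_of_finset (T.image e ∪ X) (by rw [h1]; exact h8) fun x hx => ?_
  rcases Finset.mem_union.1 hx with h | h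
  · obtain ⟨k, hk, rfl⟩ := Finset.mem_image.1 h
    exact mem_of_ch (he k hk).1
  · exact mem_of_ch (hX x h)

section

variable (K : Type u) [Field K] [Finite K] (p : ℕ) [Fact p.Prime] [CharP K p]

/-- the Steinberg character -/
theorem exists_st {m : ℕ} (hm : 4 ≤ m) {a : ℕ} (ha : Ch (POmega K (quadFormPlus m K)) a) (hpa : p ∣ a) :
    ∃ s, Ch (POmega K (quadFormPlus m K)) s ∧ p ∣ s ∧ pp p s = 1 := by
  obtain ⟨n, rfl⟩ : ∃ n, m = n + 3 := ⟨m - 3, by omega⟩
  obtain ⟨χ, hχ, h1, -⟩ := H167.StChar.HasSt.of_hasRGD (Nodes.WittInst.hasRGD_PO_plus (F := K) n (p := p))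
  refine ⟨_, ⟨χ, hχ, h1⟩, ?_, pp_pow Fact.out _⟩
  have hp : p.Prime := Fact.out
  apply dvd_pow_self
  have h2 : p ∣ Nat.card (POmega K (quadFormPlus (n + 3) K)) := by
    obtain ⟨χ', ⟨k, ρ, hρ, rfl⟩, hd⟩ := ha
    have h3 := Cfsg.Agent.S0135.result ρ
    have h4 : ρ.character 1 = (k : ℂ) := by rw [Representation.char_one]; simp
    have h5 : (a : ℂ) = k := hd.symm.trans h4
    have h6 : a = k := by exact_mod_cast h5
    rw [Module.finrank_fin_fun, ← h6] at h3
    exact hpa.trans h3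
  exact (hp.factorization_pos_of_dvd Nat.card_pos.ne' h2).ne'

/-- the four small degrees -/
theorem exists_four {m : ℕ} (hm : 4 ≤ m) : ∃ s a b : ℕ, Ch (POmega K (quadFormPlus m K)) s ∧
    Ch (POmega K (quadFormPlus m K)) a ∧ Ch (POmega K (quadFormPlus m K)) b ∧ p ∣ s ∧ p ∣ a ∧ p ∣ b ∧
    ({1, s, a, b} : Finset ℕ).card = 4 ∧ 1 < a ∧
    (∀ x ∈ ({1, s, a, b} : Finset ℕ), x ≠ 0 ∧ 4 * pp p x < pp p (dg (CForm.plusF K m) 2)) := by
  classical
  have hp : p.Prime := Fact.out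
  obtain ⟨a, b, ha, hb, hae, hbe⟩ := rk3_plus K hm
  obtain ⟨h1, h2, h3, h4, h5, h6, h7⟩ := rk3_small K p hm hae hbe
  obtain ⟨s, hs, hps, hs1⟩ := exists_st K p hm ha h1
  have hpp1 : pp p 1 = 1 := pp_one hp
  have hs0 := (ch_pos hs).ne'
  have ha0 := (ch_pos ha).ne'
  have hb0 := (ch_pos hb).ne'
  have n1 : (1 : ℕ) ≠ s := fun h => hp.one_lt.ne' (Nat.dvd_one.1 (h ▸ hps))
  have n2 : (1 : ℕ) ≠ a := fun h => hp.one_lt.ne' (Nat.dvd_one.1 (h ▸ h1))
  have n3 : (1 : ℕ) ≠ b := fun h => hp.one_lt.ne' (Nat.dvd_one.1 (h ▸ h2))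
  have n4 : s ≠ a := fun h => by rw [h] at hs1; omega
  have n5 : s ≠ b := fun h => by rw [h] at hs1; omega
  refine ⟨s, a, b, hs, ha, hb, hps, h1, h2, ?_, by omega, ?_⟩
  · rw [Finset.card_insert_of_notMem (by simp [n1, n2, n3]), Finset.card_insert_of_notMem (by simp [n4, n5]),
      Finset.card_insert_of_notMem (by simp [h3]), Finset.card_singleton]
  · intro x hx
    simp only [Finset.mem_insert, Finset.mem_singleton] at hx
    rcases hx with rfl | rfl | rfl | rfl
    · exact ⟨one_ne_zero, by rw [hpp1]; omega⟩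
    · exact ⟨hs0, by rw [hs1]; omega⟩
    · exact ⟨ha0, h6⟩
    · exact ⟨hb0, h7⟩

theorem dg_two_le {m k : ℕ} (hm : 4 ≤ m) (hk : 2 ≤ k) (hkm : k ≤ m) :
    pp p (dg (CForm.plusF K m) 2) ≤ pp p (dg (CForm.plusF K m) k) := by
  rcases Nat.eq_or_lt_of_le hk with h | h
  · rw [← h]
  · exact (dg_two_lt K p hm h hkm).le

/-- at least four indices -/
theorem eight_of_T {m : ℕ} (hm : 4 ≤ m) (T : Finset ℕ) (hT : ∀ k ∈ T, 2 ≤ k ∧ k ≤ m ∧
    (3 ≤ k ∨ 4 ≤ Nat.card K ∨ (Nat.card K = 3 ∧ Odd m))) (Y : Finset ℕ) (hY : ∀ y ∈ Y, Ch (POmega K (quadFormPlus m K)) y ∧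
      1 < y ∧ ¬ p ∣ y ∧ ∀ k ∈ T, ∀ e, Dn (POmega K (quadFormPlus m K)) p (Nat.card K) (dg (CForm.plusF K m) k) e → y ≠ e)
    (h8 : 4 ≤ T.card + Y.card) : Eight (POmega K (quadFormPlus m K)) := by
  classical
  obtain ⟨s, a, b, hs, ha, hb, hps, hpa, hpb, hc, ha1, hsm⟩ := exists_four K p hm
  have : Finite (POmega K (quadFormPlus m K)) := by
    have : Finite (isometryGroup K (quadFormPlus m K)) := inferInstance
    infer_instance
  have hdj : Disjoint ({1, s, a, b} : Finset ℕ) Y := by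
    rw [Finset.disjoint_left]
    intro x hx hx'
    obtain ⟨-, h1, h2, -⟩ := hY x hx'
    simp only [Finset.mem_insert, Finset.mem_singleton] at hx
    rcases hx with rfl | rfl | rfl | rfl
    · exact absurd h1 (lt_irrefl _)
    · exact h2 hps
    · exact h2 hpa
    · exact h2 hpb
  refine eight_of_dn (d := dg (CForm.plusF K m)) (p := p) (q := Nat.card K) T ({1, s, a, b} ∪ Y)
    (fun k hk => plus_dn K p hm (hT k hk).1 (hT k hk).2.1 (hT k hk).2.2) ?_ ?_ ?_ ?_
  · intro j hj k hk hjk e e' he he'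
    exact sep_plus K p hm (by have := (hT j hj).1; omega) (by have := (hT k hk).1; omega) (hT j hj).2.1 (hT k hk).2.1 hjk
      he.2.1 he'.2.1 he.2.2.1 he'.2.2.1
  · intro x hx
    rcases Finset.mem_union.1 hx with hx | hx
    · simp only [Finset.mem_insert, Finset.mem_singleton] at hx
      rcases hx with rfl | rfl | rfl | rfl
      · exact ⟨1, Core.isIrr_one, by simp⟩
      · exact hs
      · exact ha
      · exact hb
    · exact (hY x hx).1
  · intro x hx k hk e he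
    rcases Finset.mem_union.1 hx with hx | hx
    · obtain ⟨h1, h2⟩ := hsm x hx
      refine he.ne_of_small h1 (dg_plus_ne K (by have := (hT k hk).1; omega) (hT k hk).2.1) (h2.trans_le ?_)
      exact dg_two_le K p hm (hT k hk).1 (hT k hk).2.1
    · exact (hY x hx).2.2.2 k hk e he
  · rw [Finset.card_union_of_disjoint hdj, hc]
    omega

end

end Cfsg.Agent.H925.Eight
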