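import Cfsg.Agent.H925.Eight.Plus

/-!
# `PΩ⁺_{2m}(q)`, `m ≥ 4`, has at least eight character degrees: all `(m, q)` except `(4, 2)`, `(4, 3)` (helper925, S4899)
-/

set_option autoImplicit false

open Cfsg

namespace Cfsg.Agent.H925.Eight

open Cfsg.Agent.Characters Cfsg.Agent.H477.HC Cfsg.Agent.H674.Dl Cfsg.Agent.H664.Eight Module

universe u

section

variable (K : Type u) [Field K] [Finite K]

theorem lin_plus {m : ℕ} (hm : 4 ≤ m) (η : POmega K (CForm.plusF K m).Q → ℂ) (hη : IsIrrCharacter _ η) (hη1 : η 1 = 1) :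
    η = 1 := by
  classical
  let _ := Fintype.ofFinite K
  obtain ⟨p, hp⟩ := CharP.exists K
  obtain ⟨⟨f, hf⟩, hpp, hcard⟩ := FiniteField.card K p
  have : Fact p.Prime := ⟨hpp⟩
  obtain ⟨s, a, b, hs, ha, hb, hps, hpa, hpb, hc, ha1, hsm⟩ := exists_four K p hm
  have hsim : IsSimpleGroup (POmega K (quadFormPlus m K)) := S0296.result m hm
  have : Finite (isometryGroup K (quadFormPlus m K)) := inferInstance
  exact lin_trivial (S := POmega K (quadFormPlus m K)) ha ha1 η hη hη1

variable (p : ℕ) [Fact p.Prime] [CharP K p]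

theorem deg_point {m : ℕ} (hm : 4 ≤ m) (hq : 4 ≤ Nat.card K) :
    ∃ e, Ch (POmega K (quadFormPlus m K)) e ∧ 1 < e ∧ ¬ p ∣ e ∧ e ≤ dg (CForm.plusF K m) 1 := by
  have h1 : Nat.card ((CForm.plusF K m).Om 1) = dg (CForm.plusF K m) 1 := by
    unfold dg
    rw [Finset.Ico_self, Finset.prod_empty, mul_one]
  obtain ⟨e, f, j, h⟩ := CForm.frm_plus (K := K) (show 2 + (m - 2) = m by omega)
  have h2 := exists_deg_point (CForm.plusF K m) (plus_hB K m) hq (frm_mem h) (p := p)
    (fun z hz => cen_plus K (by omega) z hz) (by rw [h1]; exact not_dvd_dg K p le_rfl (by omega)) (lin_plus K hm)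
  rw [h1] at h2
  exact h2

theorem deg_line {m : ℕ} (hm : 4 ≤ m) (hq : Nat.card K = 2) :
    ∃ e, Ch (POmega K (quadFormPlus m K)) e ∧ 1 < e ∧ ¬ p ∣ e ∧ e ≤ dg (CForm.plusF K m) 2 := by
  have h1 : Nat.card ((CForm.plusF K m).Om 2) = dg (CForm.plusF K m) 2 := by
    unfold dg
    rw [hq]
    simp
  obtain ⟨e, f, j, h⟩ := CForm.frm_plus (K := K) (show 3 + (m - 3) = m by omega)
  have h2 := exists_deg_line (CForm.plusF K m) (plus_hB K m) hq (frm_mem h) (p := p)
    (fun z hz => cen_plus K (by omega) z hz) (by rw [h1]; exact not_dvd_dg K p (by norm_num) (by omega)) (lin_plus K hm)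
  rw [h1] at h2
  exact h2

/-- `PΩ⁺`, all cases except `(4, 2)`, `(4, 3)` -/
theorem eight_gen {m : ℕ} (hm : 4 ≤ m) (h42 : ¬ (m = 4 ∧ Nat.card K = 2)) (h43 : ¬ (m = 4 ∧ Nat.card K = 3)) :
    Eight (POmega K (quadFormPlus m K)) := by
  classical
  have hq : 2 ≤ Nat.card K := Finite.one_lt_card
  let _ := Fintype.ofFinite K
  obtain ⟨p, hp⟩ := CharP.exists K
  obtain ⟨⟨f, hf⟩, hpp, hcard⟩ := FiniteField.card K p
  have : Fact p.Prime := ⟨hpp⟩
  rcases Nat.lt_or_ge 5 m with h6 | h6
  · -- `m ≥ 6`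
    refine eight_of_T K p hm {3, 4, 5, 6} (fun k hk => ?_) ∅ (by simp) (by decide)
    simp only [Finset.mem_insert, Finset.mem_singleton] at hk
    refine ⟨by omega, by omega, Or.inl (by omega)⟩
  rcases Nat.eq_or_lt_of_le h6 with h5 | h5
  · subst h5
    rcases Nat.eq_or_lt_of_le hq with h2 | h2
    · -- `(5, 2)`
      have h2' : Nat.card K = 2 := h2.symm
      obtain ⟨e, he, he1, hpe, hle⟩ := deg_line K p hm h2'
      refine eight_of_T K p hm {3, 4, 5} (fun k hk => ?_) {e} (fun y hy => ?_) (by simp)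
      · simp only [Finset.mem_insert, Finset.mem_singleton] at hk
        refine ⟨by omega, by omega, Or.inl (by omega)⟩
      · rw [Finset.mem_singleton] at hy
        subst hy
        refine ⟨he, he1, hpe, fun k hk e' he' => ?_⟩
        simp only [Finset.mem_insert, Finset.mem_singleton] at hk
        rintro rfl
        obtain ⟨-, h7, h8, -⟩ := he'
        have ho : ¬ Odd (Nat.card K) := by rw [h2']; decide
        rw [cc_even ho, Nat.dvd_one] at h8
        have h9 : pp p (dg (CForm.plusF K 5) k) = pp p y := by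
          conv_lhs => rw [← Nat.mul_div_cancel' h7]
          rw [pp_mul, h8, mul_one]
        have h10 := dg_two_lt K p hm (show 3 ≤ k by omega) (show k ≤ 5 by omega)
        rw [h9, pp_self hpe, pp_self (not_dvd_dg K p (by norm_num) (by norm_num))] at h10
        omega
    · refine eight_of_T K p hm {2, 3, 4, 5} (fun k hk => ?_) ∅ (by simp) (by decide)
      simp only [Finset.mem_insert, Finset.mem_singleton] at hk
      refine ⟨by omega, by omega, ?_⟩
      rcases Nat.eq_or_lt_of_le h2 with h3 | h3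
      · exact Or.inr (Or.inr ⟨h3.symm, by decide⟩)
      · exact Or.inr (Or.inl h3)
  · -- `m = 4`
    have h4 : m = 4 := by omega
    subst h4
    have hq4 : 4 ≤ Nat.card K := by
      by_contra h
      have : Nat.card K = 2 ∨ Nat.card K = 3 := by omega
      rcases this with h | h
      · exact h42 ⟨rfl, h⟩
      · exact h43 ⟨rfl, h⟩
    obtain ⟨e, he, he1, hpe, hle⟩ := deg_point K p hm hq4
    refine eight_of_T K p hm {2, 3, 4} (fun k hk => ?_) {e} (fun y hy => ?_) (by simp)
    · simp only [Finset.mem_insert, Finset.mem_singleton] at hk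
      exact ⟨by omega, by omega, Or.inr (Or.inl hq4)⟩
    · rw [Finset.mem_singleton] at hy
      subst hy
      refine ⟨he, he1, hpe, fun k hk e' he' => ?_⟩
      simp only [Finset.mem_insert, Finset.mem_singleton] at hk
      refine he'.ne_of_small (by omega) (dg_plus_ne K (by omega) (by omega)) ?_
      rw [pp_self hpe]
      have h7 := dg_one_lt K p hm
      have h8 := dg_two_le K p hm (show 2 ≤ k by omega) (show k ≤ 4 by omega)
      omega

end

end Cfsg.Agent.H925.Eight
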