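import Cfsg.Agent.H925.Eight.Om
import Mathlib.GroupTheory.FiniteAbelian.Duality

/-!
# The degrees from singular points (`q ≥ 4`) and singular lines (`q = 2`) (helper925, S4899)

`exists_deg_point` : `4 ≤ q`, Witt index at least 2, `p ∤ |Om 1|` : a degree `e`, `1 < e ≤ |Om 1|`, `p ∤ e`.
`exists_deg_line` : `q = 2`, Witt index at least 3, `p ∤ |Om 2|` : a degree `e`, `1 < e ≤ |Om 2|`, `p ∤ e`.
-/

set_option autoImplicit false

open scoped ComplexConjugate
open Cfsg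

namespace Cfsg.Agent.H925.Eight

open Cfsg.Agent.Characters Cfsg.Agent.H477.HC Cfsg.Agent.H53.HC Module

universe u

section theta

variable (K : Type u) [Field K] [Finite K]

theorem exists_theta (hq : 4 ≤ Nat.card K) : ∃ (t : Kˣ) (θ : Kˣ →* ℂˣ), θ t ≠ 1 ∧ θ (-1) = 1 := by
  classical
  have hc : 3 ≤ Nat.card Kˣ := by rw [Nat.card_units]; omega
  obtain ⟨t, ht1, ht2⟩ : ∃ t : Kˣ, t ≠ 1 ∧ t ≠ -1 := by
    by_contra hcon
    push Not at hcon
    let _ := Fintype.ofFinite Kˣ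
    have h1 : (Finset.univ : Finset Kˣ) ⊆ {1, -1} := by
      intro x _
      rw [Finset.mem_insert, Finset.mem_singleton]
      by_cases hx : x = 1
      · exact Or.inl hx
      · exact Or.inr (hcon x hx)
    have h2 := (Finset.card_le_card h1).trans Finset.card_le_two
    rw [Finset.card_univ, ← Nat.card_eq_fintype_card] at h2
    omega
  let N : Subgroup Kˣ := Subgroup.zpowers (-1)
  have hN : ∀ x ∈ N, x = 1 ∨ x = -1 := by
    intro x hx
    obtain ⟨n, rfl⟩ := Subgroup.mem_zpowers_iff.1 hx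
    rcases Int.even_or_odd n with h | h
    · exact Or.inl (Even.neg_one_zpow h)
    · exact Or.inr (Odd.neg_one_zpow h)
  have htN : (t : Kˣ ⧸ N) ≠ 1 := by
    rw [Ne, QuotientGroup.eq_one_iff]
    intro h
    rcases hN t h with h | h
    · exact ht1 h
    · exact ht2 h
  obtain ⟨φ, hφ⟩ := CommGroup.exists_apply_ne_one_of_hasEnoughRootsOfUnity (Kˣ ⧸ N) ℂ htN
  refine ⟨t, φ.comp (QuotientGroup.mk' N), hφ, ?_⟩
  rw [MonoidHom.comp_apply]
  have : (QuotientGroup.mk' N) (-1) = 1 := (QuotientGroup.eq_one_iff _).2 (Subgroup.mem_zpowers _)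
  rw [this, map_one]

end theta

section

variable {ι : Type} [Fintype ι] [DecidableEq ι] {K : Type u} [Field K] [Finite K] (F : CForm K (ι → K))
  (hB : ∀ u v, F.B u v = F.Q (u + v) - F.Q u - F.Q v)

omit [Fintype ι] [DecidableEq ι] [Finite K] in
theorem inv_ap (g : F.iso) (v : ι → K) :
    ((g⁻¹ : F.iso) : (ι → K) ≃ₗ[K] (ι → K)) ((g : (ι → K) ≃ₗ[K] (ι → K)) v) = v :=
  (g : (ι → K) ≃ₗ[K] (ι → K)).symm_apply_apply v

omit [Fintype ι] [DecidableEq ι] [Finite K] in
theorem mul_ap (g g' : F.iso) (v : ι → K) : ((g * g' : F.iso) : (ι → K) ≃ₗ[K] (ι → K)) v =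
    (g : (ι → K) ≃ₗ[K] (ι → K)) ((g' : (ι → K) ≃ₗ[K] (ι → K)) v) := rfl

include hB in
theorem exists_deg_point (hq : 4 ≤ Nat.card K) {M : Submodule K (ι → K)} (hM : M ∈ F.Om 2)
    (hcen : ∀ z : Omega K F.Q, z ∈ Subgroup.center (Omega K F.Q) → omMat z = 1 ∨ omMat z = -1) {p : ℕ}
    (hp : ¬ p ∣ Nat.card (F.Om 1))
    (hS : ∀ η : POmega K F.Q → ℂ, IsIrrCharacter _ η → η 1 = 1 → η = 1) :
    ∃ e, Ch (POmega K F.Q) e ∧ 1 < e ∧ ¬ p ∣ e ∧ e ≤ Nat.card (F.Om 1) := by
  classical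
  obtain ⟨t, θ, ht, hθ⟩ := exists_theta K hq
  let b : Basis (Fin 2) K M := finBasisOfFinrankEq K M hM.2
  let a : M ≃ₗ[K] M := b.equiv (b.unitsSMul ![t, 1]) (Equiv.refl _)
  let a' : M ≃ₗ[K] M := b.equiv b (Equiv.swap 0 1)
  obtain ⟨x, hx⟩ := F.exists_levi' hM.1 a
  obtain ⟨y, hy⟩ := F.exists_levi' hM.1 a'
  have hx0 : (x : (ι → K) ≃ₗ[K] (ι → K)) (b 0) = (t : K) • (b 0 : ι → K) := by
    rw [hx, Basis.equiv_apply, Basis.unitsSMul_apply]
    rfl
  have hx1 : (x : (ι → K) ≃ₗ[K] (ι → K)) (b 1) = (b 1 : ι → K) := by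
    rw [hx, Basis.equiv_apply, Basis.unitsSMul_apply]
    simp
  have hy0 : (y : (ι → K) ≃ₗ[K] (ι → K)) (b 0) = (b 1 : ι → K) := by
    rw [hy, Basis.equiv_apply, Equiv.swap_apply_left]
  have hy1 : (y : (ι → K) ≃ₗ[K] (ι → K)) (b 1) = (b 0 : ι → K) := by
    rw [hy, Basis.equiv_apply, Equiv.swap_apply_right]
  have hb0 : (b 0 : ι → K) ≠ 0 := fun h => b.ne_zero 0 (Subtype.ext h)
  let W₀ : Submodule K (ι → K) := Submodule.span K {(b 0 : ι → K)}
  have hW₀ : W₀ ∈ F.Om 1 := ⟨hM.1.mono (by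
    rw [Submodule.span_le, Set.singleton_subset_iff]; exact (b 0).2), finrank_span_singleton hb0⟩
  have hyi : ((y⁻¹ : F.iso) : (ι → K) ≃ₗ[K] (ι → K)) (b 0) = (b 1 : ι → K) := by
    rw [← hy1, inv_ap F]
  have hxi : ((x⁻¹ : F.iso) : (ι → K) ≃ₗ[K] (ι → K)) (b 1) = (b 1 : ι → K) := by
    conv_lhs => rw [← hx1]
    rw [inv_ap F]
  have hc : ((x * y * x⁻¹ * y⁻¹ : F.iso) : (ι → K) ≃ₗ[K] (ι → K)) (b 0) = (t : K) • (b 0 : ι → K) := by
    rw [mul_ap F, mul_ap F, mul_ap F, hyi, hxi, hy1, hx0]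
  refine exists_deg F hB hW₀ (θ.comp LinearEquiv.det) x y (LinearEquiv.smulOfUnit t) (fun w => ?_) ?_ (fun z hz => ?_) hp hS
  · obtain ⟨w, hw⟩ := w
    obtain ⟨c, rfl⟩ := Submodule.mem_span_singleton.1 hw
    change ((x * y * x⁻¹ * y⁻¹ : F.iso) : (ι → K) ≃ₗ[K] (ι → K)) (c • (b 0 : ι → K)) = (t : K) • (c • (b 0 : ι → K))
    rw [map_smul, hc, smul_comm]
  · have h1 : LinearEquiv.det (LinearEquiv.smulOfUnit t : W₀ ≃ₗ[K] W₀) = t := by
      apply Units.ext
      rw [LinearEquiv.coe_det]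
      have h2 : ((LinearEquiv.smulOfUnit t : W₀ ≃ₗ[K] W₀) : W₀ →ₗ[K] W₀) = (t : K) • LinearMap.id := rfl
      rw [h2, LinearMap.det_smul, LinearMap.det_id, mul_one, hW₀.2, pow_one]
    rw [MonoidHom.comp_apply, h1]
    exact ht
  · rcases hcen z hz with h | h
    · refine ⟨1, fun v => by rw [h, Matrix.one_mulVec, Units.val_one, one_smul], fun u hu => ?_⟩
      have h1 : u = 1 := LinearEquiv.ext fun w => by rw [hu, Units.val_one, one_smul]; rfl
      rw [h1, map_one]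
    · refine ⟨-1, fun v => by rw [h, Matrix.neg_mulVec, Matrix.one_mulVec, Units.val_neg, Units.val_one, neg_smul,
        one_smul], fun u hu => ?_⟩
      have h1 : LinearEquiv.det u = -1 := by
        apply Units.ext
        rw [LinearEquiv.coe_det]
        have h2 : (u : W₀ →ₗ[K] W₀) = (-1 : K) • LinearMap.id := LinearMap.ext fun w => by
          have := hu w
          rw [Units.val_neg, Units.val_one] at this
          exact this
        rw [h2, LinearMap.det_smul, LinearMap.det_id, mul_one, hW₀.2, pow_one, Units.val_neg, Units.val_one]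
      rw [MonoidHom.comp_apply, h1, hθ]

omit [Fintype ι] [DecidableEq ι] in
theorem two_vals (hq : Nat.card K = 2) (a : K) : a = 0 ∨ a = 1 := by
  classical
  let _ := Fintype.ofFinite K
  by_contra hcon
  push Not at hcon
  have h1 : ({a, 0, 1} : Finset K).card = 3 := by
    rw [Finset.card_insert_of_notMem, Finset.card_insert_of_notMem, Finset.card_singleton]
    · simp
    · simp only [Finset.mem_insert, Finset.mem_singleton, not_or]
      exact ⟨hcon.1, hcon.2⟩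
  have h2 := Finset.card_le_univ ({a, 0, 1} : Finset K)
  rw [h1, ← Nat.card_eq_fintype_card, hq] at h2
  omega

omit [Fintype ι] [DecidableEq ι] in
theorem two_eq_zero (hq : Nat.card K = 2) : (2 : K) = 0 := by
  rcases two_vals (K := K) hq 2 with h | h
  · exact h
  · exfalso
    have : (1 : K) = 0 := by linear_combination h
    exact one_ne_zero this

include hB in
theorem exists_deg_line (hq : Nat.card K = 2) {M : Submodule K (ι → K)} (hM : M ∈ F.Om 3)
    (hcen : ∀ z : Omega K F.Q, z ∈ Subgroup.center (Omega K F.Q) → omMat z = 1 ∨ omMat z = -1) {p : ℕ}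
    (hp : ¬ p ∣ Nat.card (F.Om 2))
    (hS : ∀ η : POmega K F.Q → ℂ, IsIrrCharacter _ η → η 1 = 1 → η = 1) :
    ∃ e, Ch (POmega K F.Q) e ∧ 1 < e ∧ ¬ p ∣ e ∧ e ≤ Nat.card (F.Om 2) := by
  classical
  have h20 := two_eq_zero (K := K) hq
  let b : Basis (Fin 3) K M := finBasisOfFinrankEq K M hM.2
  have hbli := b.linearIndependent
  have hij : ∀ (i j : Fin 3) (c : K), i ≠ j → ∀ w ∈ Submodule.span K {b j}, ((b.coord i).smulRight (b j)) w = 0 := by
    intro i j c hij w hw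
    obtain ⟨d, rfl⟩ := Submodule.mem_span_singleton.1 hw
    rw [LinearMap.smulRight_apply, map_smul, Basis.coord_apply, Basis.repr_self, Finsupp.single_eq_of_ne hij, smul_zero,
      zero_smul]
  have himg : ∀ (i j : Fin 3), ∀ w, ((b.coord i).smulRight (b j)) w ∈ Submodule.span K {b j} := fun i j w => by
    rw [LinearMap.smulRight_apply]
    exact Submodule.smul_mem _ _ (Submodule.mem_span_singleton_self _)
  let a : M ≃ₗ[K] M := oneAdd (Submodule.span K {b 0}) ((b.coord 2).smulRight (b 0)) (himg 2 0)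
    (hij 2 0 1 (by decide))
  let a' : M ≃ₗ[K] M := oneAdd (Submodule.span K {b 2}) ((b.coord 1).smulRight (b 2)) (himg 1 2)
    (hij 1 2 1 (by decide))
  obtain ⟨x, hx⟩ := F.exists_levi' hM.1 a
  obtain ⟨y, hy⟩ := F.exists_levi' hM.1 a'
  have hx' : ∀ i, (x : (ι → K) ≃ₗ[K] (ι → K)) (b i) = (b i : ι → K) + (if i = 2 then (b 0 : ι → K) else 0) := by
    intro i
    rw [hx]
    change ((b i + ((b.coord 2).smulRight (b 0)) (b i) : M) : ι → K) = _
    rw [LinearMap.smulRight_apply, Basis.coord_apply, Basis.repr_self, Finsupp.single_apply]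
    split_ifs <;> simp
  have hy' : ∀ i, (y : (ι → K) ≃ₗ[K] (ι → K)) (b i) = (b i : ι → K) + (if i = 1 then (b 2 : ι → K) else 0) := by
    intro i
    rw [hy]
    change ((b i + ((b.coord 1).smulRight (b 2)) (b i) : M) : ι → K) = _
    rw [LinearMap.smulRight_apply, Basis.coord_apply, Basis.repr_self, Finsupp.single_apply]
    split_ifs <;> simp
  have hx0 := hx' 0
  have hx1 := hx' 1
  have hx2 := hx' 2
  have hy0 := hy' 0
  have hy1 := hy' 1
  have hy2 := hy' 2
  rw [if_neg (by decide), add_zero] at hx0 hx1 hy0 hy2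
  rw [if_pos rfl] at hx2 hy1
  have hxi0 : ((x⁻¹ : F.iso) : (ι → K) ≃ₗ[K] (ι → K)) (b 0) = (b 0 : ι → K) := by
    conv_lhs => rw [← hx0]
    rw [inv_ap F]
  have hxi1 : ((x⁻¹ : F.iso) : (ι → K) ≃ₗ[K] (ι → K)) (b 1) = (b 1 : ι → K) := by
    conv_lhs => rw [← hx1]
    rw [inv_ap F]
  have hxi2 : ((x⁻¹ : F.iso) : (ι → K) ≃ₗ[K] (ι → K)) (b 2) = (b 2 : ι → K) - (b 0 : ι → K) := by
    have h1 : (b 2 : ι → K) = (x : (ι → K) ≃ₗ[K] (ι → K)) ((b 2 : ι → K) - (b 0 : ι → K)) := by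
      rw [map_sub, hx2, hx0, add_sub_cancel_right]
    conv_lhs => rw [h1]
    rw [inv_ap F]
  have hyi0 : ((y⁻¹ : F.iso) : (ι → K) ≃ₗ[K] (ι → K)) (b 0) = (b 0 : ι → K) := by
    conv_lhs => rw [← hy0]
    rw [inv_ap F]
  have hyi1 : ((y⁻¹ : F.iso) : (ι → K) ≃ₗ[K] (ι → K)) (b 1) = (b 1 : ι → K) - (b 2 : ι → K) := by
    have h1 : (b 1 : ι → K) = (y : (ι → K) ≃ₗ[K] (ι → K)) ((b 1 : ι → K) - (b 2 : ι → K)) := by
      rw [map_sub, hy1, hy2, add_sub_cancel_right]
    conv_lhs => rw [h1]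
    rw [inv_ap F]
  have hc0 : ((x * y * x⁻¹ * y⁻¹ : F.iso) : (ι → K) ≃ₗ[K] (ι → K)) (b 0) = (b 0 : ι → K) := by
    rw [mul_ap F, mul_ap F, mul_ap F, hyi0, hxi0, hy0, hx0]
  have hc1 : ((x * y * x⁻¹ * y⁻¹ : F.iso) : (ι → K) ≃ₗ[K] (ι → K)) (b 1) = (b 0 : ι → K) + (b 1 : ι → K) := by
    rw [mul_ap F, mul_ap F, mul_ap F, hyi1]
    simp only [map_sub, map_add, hxi1, hxi2, hy1, hy2, hy0, hx1, hx2, hx0]
    abel
  set c : F.iso := x * y * x⁻¹ * y⁻¹ with hcdef
  let W₀ : Submodule K (ι → K) := Submodule.span K {(b 0 : ι → K), (b 1 : ι → K)}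
  have hmemW : ∀ w, w ∈ W₀ ↔ ∃ r s : K, r • (b 0 : ι → K) + s • (b 1 : ι → K) = w := fun w => Submodule.mem_span_pair
  have hli2 : LinearIndependent K ![(b 0 : ι → K), (b 1 : ι → K)] := by
    rw [LinearIndependent.pair_iff]
    intro r s hrs
    have h1 : r • b 0 + s • b 1 = 0 := Subtype.ext hrs
    have h2 := congrArg (fun w => (b.repr w 0, b.repr w 1)) h1
    simpa using h2
  have hW₀ : W₀ ∈ F.Om 2 := by
    refine ⟨hM.1.mono ?_, ?_⟩
    · rw [Submodule.span_le]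
      rintro _ (rfl | rfl)
      · exact (b 0).2
      · exact (b 1).2
    · have h1 := finrank_span_eq_card hli2
      rw [Fintype.card_fin] at h1
      have h2 : Set.range ![(b 0 : ι → K), (b 1 : ι → K)] = {(b 0 : ι → K), (b 1 : ι → K)} := by
        rw [Matrix.range_cons, Matrix.range_cons, Matrix.range_empty, Set.union_empty]
        rfl
      rw [h2] at h1
      exact h1
  have hst : W₀.map (F.iso.subtype c : (ι → K) →ₗ[K] (ι → K)) = W₀ := by
    refine map_eq_of_le F.iso.subtype fun w hw => ?_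
    obtain ⟨r, s, rfl⟩ := (hmemW w).1 hw
    change (c : (ι → K) ≃ₗ[K] (ι → K)) (r • (b 0 : ι → K) + s • (b 1 : ι → K)) ∈ W₀
    rw [map_add, map_smul, map_smul, hc0, hc1]
    exact (hmemW _).2 ⟨r + s, s, by rw [add_smul, smul_add]; abel⟩
  let z : W₀ ≃ₗ[K] W₀ := res (F.iso.subtype c) W₀ hst
  have : Finite W₀ := inferInstance
  let _ := Fintype.ofFinite W₀
  let f₀ : (W₀ ≃ₗ[K] W₀) →* ℂˣ := (Units.map (Int.castRingHom ℂ).toMonoidHom).comp
    (Equiv.Perm.sign.comp (MulAction.toPermHom (W₀ ≃ₗ[K] W₀) W₀))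
  refine exists_deg F hB hW₀ f₀ x y z (fun w => rfl) ?_ (fun z hz => ?_) hp hS
  · have hb0 : (b 0 : ι → K) ∈ W₀ := (hmemW _).2 ⟨1, 0, by rw [one_smul, zero_smul, add_zero]⟩
    have hb1 : (b 1 : ι → K) ∈ W₀ := (hmemW _).2 ⟨0, 1, by rw [one_smul, zero_smul, zero_add]⟩
    let u0 : W₀ := ⟨b 0, hb0⟩
    let u1 : W₀ := ⟨b 1, hb1⟩
    have hu0 : u0 ≠ 0 := fun h => b.ne_zero 0 (Subtype.ext (congrArg (fun w : W₀ => (w : ι → K)) h))
    have hu1 : u1 ≠ 0 := fun h => b.ne_zero 1 (Subtype.ext (congrArg (fun w : W₀ => (w : ι → K)) h))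
    have hu01 : u0 ≠ u1 := fun h => by
      have h1 : b 0 = b 1 := Subtype.ext (congrArg (fun w : W₀ => (w : ι → K)) h)
      exact absurd (b.injective h1) (by decide)
    have hz0 : z u0 = u0 := Subtype.ext hc0
    have hz1 : z u1 = u0 + u1 := Subtype.ext hc1
    have hdbl : ∀ w : W₀, w + w = 0 := fun w => by rw [← two_smul K w, h20, zero_smul]
    have hsw : MulAction.toPermHom (W₀ ≃ₗ[K] W₀) W₀ z = Equiv.swap u1 (u0 + u1) := by
      refine Equiv.ext fun w => ?_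
      change z w = _
      have hw : w = 0 ∨ w = u0 ∨ w = u1 ∨ w = u0 + u1 := by
        obtain ⟨r, s, hrs⟩ := (hmemW w).1 w.2
        rcases two_vals (K := K) hq r with rfl | rfl <;> rcases two_vals (K := K) hq s with rfl | rfl
        · exact Or.inl (Subtype.ext (by rw [← hrs]; simp))
        · exact Or.inr (Or.inr (Or.inl (Subtype.ext (by rw [← hrs]; simp [u1]))))
        · exact Or.inr (Or.inl (Subtype.ext (by rw [← hrs]; simp [u0])))
        · exact Or.inr (Or.inr (Or.inr (Subtype.ext (by rw [← hrs]; simp [u0, u1]))))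
      rcases hw with rfl | rfl | rfl | rfl
      · rw [map_zero, Equiv.swap_apply_of_ne_of_ne hu1.symm]
        intro h
        apply hu01
        calc u0 = u0 + (u1 + u1) := by rw [hdbl, add_zero]
          _ = (u0 + u1) + u1 := by abel
          _ = u1 := by rw [← h, zero_add]
      · rw [hz0, Equiv.swap_apply_of_ne_of_ne hu01]
        intro h
        exact hu1 (left_eq_add.1 h)
      · rw [hz1, Equiv.swap_apply_left]
      · rw [map_add, hz0, hz1, Equiv.swap_apply_right, ← add_assoc, hdbl, zero_add]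
    have hne : u1 ≠ u0 + u1 := fun h => hu0 (right_eq_add.1 h)
    have hfz : f₀ z = -1 := by
      apply Units.ext
      change ((Equiv.Perm.sign (MulAction.toPermHom (W₀ ≃ₗ[K] W₀) W₀ z) : ℤˣ) : ℤ) = (_ : ℂ)
      rw [hsw, Equiv.Perm.sign_swap hne]
      simp
    rw [hfz]
    intro h
    have := congrArg Units.val h
    norm_num at this
  · have hz1 : omMat z = 1 := by
      rcases hcen z hz with h | h
      · exact h
      · rw [h]
        ext i j
        have h3 : (-1 : K) = 1 := by linear_combination -h20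
        simp only [Matrix.neg_apply, Matrix.one_apply]
        split_ifs
        · exact h3
        · exact neg_zero
    refine ⟨1, fun v => by rw [hz1, Matrix.one_mulVec, Units.val_one, one_smul], fun u hu => ?_⟩
    have h1 : u = 1 := LinearEquiv.ext fun w => by rw [hu, Units.val_one, one_smul]; rfl
    rw [h1, map_one]

end

end Cfsg.Agent.H925.Eight
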